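import Mathlib

set_option autoImplicit false

/-! Project UP (S3575): the symmetric group of degree `a * b` acting on the partitions into
`b` parts of size `a`; which elements of prime order fix a partition. This file only states
the package lemmas as `Prop`s. -/

namespace Cfsg.Agent.Lib.Helper73.UP

open Equiv

/-- A model: a permutation `σ` with `σ ^ r = 1` moving exactly `r * j` points which permutes
the fibres of a map onto a `b`-element set all of whose fibres have `a` elements. -/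
def Model (r a b j : ℕ) : Prop :=
  ∃ (X Y : Type) (_ : Finite X) (_ : Finite Y) (σ : Perm X) (π : Perm Y) (f : X → Y),
    Nat.card Y = b ∧ (∀ y : Y, Nat.card {x : X // f x = y} = a) ∧
      (∀ x : X, f (σ x) = π (f x)) ∧ σ ^ r = 1 ∧ Nat.card {x : X // σ x ≠ x} = r * j

/-- Package ARITH: the interval-covering condition in closed form. -/
def LemArith : Prop :=
  ∀ a b r : ℕ, 2 ≤ a → 2 ≤ b → r.Prime → r ≤ a * b →
    ((∀ j : ℕ, 1 ≤ j → j * r ≤ a * b →
        ∃ t : ℕ, t * r ≤ b ∧ t * a ≤ j ∧ j ≤ b * (a / r) + t * (a % r)) ↔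
      (r ≤ a ∧ (a % r = 0 ∨ (b % r = 0 ∧ a % r = 1) ∨
        (a % r ≠ 0 ∧ b % r ≠ 0 ∧ (b % r) * (a % r) < r ∧
          (b < r ∨ (b % r + r) * (a % r) ≤ (b % r) * a + r)))))

/-- Package DIV: a prime dividing the number of uniform partitions is at most `a * b`. -/
def LemDiv : Prop :=
  ∀ a b r : ℕ, 1 ≤ a → r.Prime →
    r ∣ (a * b).factorial / (a.factorial ^ b * b.factorial) → r ≤ a * b

/-- Package PERM (1): permutations of prime order with a prescribed number of cycles. -/
def LemPerm : Prop :=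
  ∀ n r j : ℕ, r.Prime → 1 ≤ j → j * r ≤ n →
    ∃ σ : Perm (Fin n), orderOf σ = r ∧ σ.support.card = r * j

/-- Package PERM (2): the support of a permutation of prime order. -/
def LemSupp : Prop :=
  ∀ (n r : ℕ) (σ : Perm (Fin n)), r.Prime → orderOf σ = r →
    ∃ j : ℕ, 1 ≤ j ∧ j * r ≤ n ∧ σ.support.card = r * j

/-- Package INV: an invariant set of moved points of a permutation with `σ ^ r = 1`. -/
def LemInv : Prop :=
  ∀ (n r : ℕ) (σ : Perm (Fin n)) (Z : Finset (Fin n)), r.Prime → σ ^ r = 1 →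
    (∀ x ∈ Z, σ x ∈ Z) → (∀ x ∈ Z, σ x ≠ x) → r ∣ Z.card

/-- Package NEC: the number of moved points of an element of order `r` fixing a uniform
partition. -/
def LemNec : Prop :=
  ∀ (a b r : ℕ) (σ : Perm (Fin (a * b))), 1 ≤ a → r.Prime → orderOf σ = r →
    (∃ f : Fin (a * b) → Fin b, (∀ j : Fin b, Nat.card {x : Fin (a * b) // f x = j} = a) ∧
      ∃ π : Perm (Fin b), ∀ x : Fin (a * b), f (σ x) = π (f x)) →
    ∃ t : ℕ, t * r ≤ b ∧ t * a * r ≤ σ.support.card ∧
      σ.support.card ≤ r * (b * (a / r) + t * (a % r))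

/-- Package SUFF: transport of a model along a conjugation. -/
def LemSuff : Prop :=
  ∀ (a b r j : ℕ) (σ : Perm (Fin (a * b))), r.Prime → orderOf σ = r →
    σ.support.card = r * j → Model r a b j →
    ∃ f : Fin (a * b) → Fin b, (∀ i : Fin b, Nat.card {x : Fin (a * b) // f x = i} = a) ∧
      ∃ π : Perm (Fin b), ∀ x : Fin (a * b), f (σ x) = π (f x)

/-- Package MSUM: disjoint sums of models. -/
def LemModelSum : Prop :=
  ∀ r a b₁ b₂ j₁ j₂ : ℕ, Model r a b₁ j₁ → Model r a b₂ j₂ →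
    Model r a (b₁ + b₂) (j₁ + j₂)

/-- Package MBASE (1): `r` blocks permuted cyclically. -/
def LemModelShift : Prop :=
  ∀ r a : ℕ, 2 ≤ r → Model r a r a

/-- Package MBASE (2): one block carrying `c` cycles. -/
def LemModelOne : Prop :=
  ∀ r a c : ℕ, r.Prime → c * r ≤ a → Model r a 1 c

/-- Package MBASE (3): the empty model. -/
def LemModelZero : Prop :=
  ∀ r a : ℕ, Model r a 0 0

/-- Package MODEL: all the models needed. -/
def LemModel : Prop :=
  ∀ r a b j t : ℕ, r.Prime → t * r ≤ b → t * a ≤ j → j ≤ b * (a / r) + t * (a % r) →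
    Model r a b j

/-- The statement of S3575. -/
def S3575Stmt : Prop :=
  ∀ (a b : ℕ) (_ : 2 ≤ a) (_ : 2 ≤ b) (r : ℕ) (_ : r.Prime)
    (_ : r ∣ (a * b).factorial / (a.factorial ^ b * b.factorial)),
    (∀ σ : Equiv.Perm (Fin (a * b)), orderOf σ = r →
        ∃ f : Fin (a * b) → Fin b, (∀ j : Fin b, Nat.card {x : Fin (a * b) // f x = j} = a) ∧
          ∃ π : Equiv.Perm (Fin b), ∀ x : Fin (a * b), f (σ x) = π (f x)) ↔
      (r ≤ a ∧ (a % r = 0 ∨ (b % r = 0 ∧ a % r = 1) ∨
        (a % r ≠ 0 ∧ b % r ≠ 0 ∧ (b % r) * (a % r) < r ∧ (b < r ∨ (b % r + r) * (a % r) ≤ (b % r) * a + r))))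

end Cfsg.Agent.Lib.Helper73.UP
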