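import Mathlib
import Cfsg.Agent.Lib.Helper73.UP.Defs

set_option autoImplicit false

namespace Cfsg.Agent.Lib.Helper73.UP

open Equiv

theorem s3575_of (hA : LemArith) (hD : LemDiv) (hP : LemPerm) (hS : LemSupp) (hN : LemNec)
    (hF : LemSuff) (hM : LemModel) : S3575Stmt := by
  intro a b ha hb r hr hrd
  have hrab : r ≤ a * b := hD a b r (by omega) hr hrd
  rw [← hA a b r ha hb hr hrab]
  constructor
  · intro h j hj hjr
    obtain ⟨σ, hσ, hsupp⟩ := hP (a * b) r j hr hj hjr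
    obtain ⟨t, ht1, ht2, ht3⟩ := hN a b r σ (by omega) hr hσ (h σ hσ)
    refine ⟨t, ht1, ?_, ?_⟩
    · rw [hsupp] at ht2
      have h2 : r * (t * a) ≤ r * j := by
        calc r * (t * a) = t * a * r := by ring
          _ ≤ r * j := ht2
      exact Nat.le_of_mul_le_mul_left h2 hr.pos
    · rw [hsupp] at ht3
      exact Nat.le_of_mul_le_mul_left ht3 hr.pos
  · intro h σ hσ
    obtain ⟨j, hj1, hj2, hj3⟩ := hS (a * b) r σ hr hσ
    obtain ⟨t, ht1, ht2, ht3⟩ := h j hj1 hj2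
    exact hF a b r j σ hr hσ hj3 (hM r a b j t hr ht1 ht2 ht3)

end Cfsg.Agent.Lib.Helper73.UP
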