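import Mathlib
import Cfsg.Agent.Lib.Helper73.UP.Defs
import Cfsg.Agent.Lib.Helper73.UP.Main
import Cfsg.Agent.Lib.Helper13.UP.Arith
import Cfsg.Agent.Lib.Helper4.UP.Inv
import Cfsg.Agent.Lib.Helper4.UP.Nec
import Cfsg.Agent.Lib.Helper65.UP.ModelAll
import Cfsg.Agent.Lib.Helper65.UP.Suff
import Cfsg.Agent.Lib.Helper85.UP.Div
import Cfsg.Agent.Lib.Helper85.UP.MBase
import Cfsg.Agent.Lib.Helper85.UP.MSum
import Cfsg.Agent.Lib.Helper85.UP.Perm

set_option autoImplicit false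

/-! Project UP (S3575): assembly of the packages. -/

namespace Cfsg.Agent.Lib.Helper73.UP

theorem lemModel : LemModel :=
  Cfsg.Agent.Lib.Helper65.UP.lemModel_of Cfsg.Agent.Lib.Helper85.UP.lemModelSum
    Cfsg.Agent.Lib.Helper85.UP.lemModelShift
    (Cfsg.Agent.Lib.Helper85.UP.lemModelOne_of Cfsg.Agent.Lib.Helper85.UP.lemPerm)
    Cfsg.Agent.Lib.Helper85.UP.lemModelZero

theorem s3575 : S3575Stmt :=
  s3575_of Cfsg.Agent.Lib.Helper13.UP.lemArith Cfsg.Agent.Lib.Helper85.UP.lemDiv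
    Cfsg.Agent.Lib.Helper85.UP.lemPerm Cfsg.Agent.Lib.Helper85.UP.lemSupp
    (Cfsg.Agent.Lib.Helper4.UP.lemNec_of Cfsg.Agent.Lib.Helper4.UP.lemInv)
    Cfsg.Agent.Lib.Helper65.UP.lemSuff lemModel

end Cfsg.Agent.Lib.Helper73.UP
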